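import Mathlib
import Cfsg.Agent.LargeExtraspecial.Extraspecial
import Cfsg.Agent.Eq.Def_Transfer
import Cfsg.Agent.Eq.Def_Solvable

/-!
The setting "large extraspecial 2-subgroup": `Q x = O_2(C(x))`, `Q z` extraspecial containing its
centralizer. Facts about the conjugates of `z` (singular involutions).
-/

set_option autoImplicit false

namespace CfsgLib.SingularQ

open Cfsg CfsgLib.LargeExtraspecial

variable {G : Type*} [Group G]

/-- The hypotheses of the setting. -/
structure Setting (Q : G → Subgroup G) (z : G) : Prop where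
  def_eq : ∀ x : G, Q x = (Cfsg.pCore 2 ↥(Subgroup.centralizer ({x} : Set G))).map
    (Subgroup.centralizer ({x} : Set G)).subtype
  order : orderOf z = 2
  extra : Cfsg.IsExtraspecial 2 ↥(Q z)
  selfCent : Subgroup.centralizer ((Q z : Subgroup G) : Set G) ≤ Q z

theorem mem_cent_singleton {x y : G} :
    y ∈ Subgroup.centralizer ({x} : Set G) ↔ x * y = y * x := by
  rw [Subgroup.mem_centralizer_iff]; simp

variable [Finite G] {Q : G → Subgroup G} {z : G}

theorem le_cent (hS : Setting Q z) (x : G) : Q x ≤ Subgroup.centralizer ({x} : Set G) := by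
  rw [hS.def_eq]; exact Subgroup.map_subtype_le _

theorem commute_of_mem (hS : Setting Q z) {x y : G} (hy : y ∈ Q x) : x * y = y * x :=
  mem_cent_singleton.1 (le_cent hS x hy)

theorem isPGroup (hS : Setting Q z) (x : G) : IsPGroup 2 ↥(Q x) := by
  haveI : Fact (Nat.Prime 2) := ⟨Nat.prime_two⟩
  rw [hS.def_eq]
  exact (isPGroup_pCore 2).map _

theorem conj_mem_of_commute (hS : Setting Q z) {x c y : G} (hc : x * c = c * x) (hy : y ∈ Q x) :
    c * y * c⁻¹ ∈ Q x := by
  haveI : Fact (Nat.Prime 2) := ⟨Nat.prime_two⟩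
  rw [hS.def_eq] at hy ⊢
  obtain ⟨y', hy', rfl⟩ := hy
  refine ⟨⟨c, mem_cent_singleton.2 hc⟩ * y' * ⟨c, mem_cent_singleton.2 hc⟩⁻¹, ?_, rfl⟩
  haveI : (Cfsg.pCore 2 ↥(Subgroup.centralizer ({x} : Set G))).Normal :=
    Subgroup.sSup_normal _ fun N hN => hN.1
  exact Subgroup.Normal.conj_mem inferInstance y' hy' _

theorem le_of_normalized (hS : Setting Q z) {x : G} {N : Subgroup G}
    (hN : N ≤ Subgroup.centralizer ({x} : Set G)) (hp : IsPGroup 2 ↥N)
    (hn : ∀ c, x * c = c * x → ∀ y ∈ N, c * y * c⁻¹ ∈ N) : N ≤ Q x := by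
  rw [hS.def_eq]
  intro y hy
  refine ⟨⟨y, hN hy⟩, ?_, rfl⟩
  refine (le_sSup (show N.subgroupOf (Subgroup.centralizer ({x} : Set G)) ∈
    {M : Subgroup ↥(Subgroup.centralizer ({x} : Set G)) | M.Normal ∧ IsPGroup 2 ↥M} from ⟨?_, ?_⟩) :
    N.subgroupOf _ ≤ Cfsg.pCore 2 _) hy
  · exact ⟨fun m hm c => hn c (mem_cent_singleton.1 c.2) m hm⟩
  · exact hp.of_equiv (Subgroup.subgroupOfEquivOfLe hN).symm

theorem conj_mem (hS : Setting Q z) (g : G) {x y : G} (hy : y ∈ Q x) :
    g * y * g⁻¹ ∈ Q (g * x * g⁻¹) := by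
  refine le_of_normalized hS (N := (Q x).map (MulAut.conj g).toMonoidHom) ?_ ((isPGroup hS x).map _)
    ?_ ⟨y, hy, rfl⟩
  · rintro w ⟨v, hv, rfl⟩
    rw [mem_cent_singleton]
    show g * x * g⁻¹ * (g * v * g⁻¹) = g * v * g⁻¹ * (g * x * g⁻¹)
    calc g * x * g⁻¹ * (g * v * g⁻¹) = g * (x * v) * g⁻¹ := by group
      _ = g * (v * x) * g⁻¹ := by rw [commute_of_mem hS hv]
      _ = _ := by group
  · rintro c hc w ⟨v, hv, rfl⟩
    refine ⟨(g⁻¹ * c * g) * v * (g⁻¹ * c * g)⁻¹, conj_mem_of_commute hS ?_ hv, ?_⟩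
    · calc x * (g⁻¹ * c * g) = g⁻¹ * ((g * x * g⁻¹) * c) * g := by group
        _ = g⁻¹ * (c * (g * x * g⁻¹)) * g := by rw [hc]
        _ = _ := by group
    · show g * _ * g⁻¹ = c * (g * v * g⁻¹) * c⁻¹
      group

theorem mem_conj_iff (hS : Setting Q z) (g x y : G) :
    y ∈ Q (g * x * g⁻¹) ↔ g⁻¹ * y * g ∈ Q x := by
  constructor
  · intro h
    have := conj_mem hS g⁻¹ h
    rwa [inv_inv, show g⁻¹ * (g * x * g⁻¹) * g = x by group] at this
  · intro h
    have := conj_mem hS g h
    rwa [show g * (g⁻¹ * y * g) * g⁻¹ = y by group] at this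

theorem z_mem_zOf (hS : Setting Q z) : z ∈ zOf (Q z) := by
  refine mem_zOf.2 ⟨hS.selfCent ?_, fun q hq => (commute_of_mem hS hq).symm⟩
  exact Subgroup.mem_centralizer_iff.2 fun q hq => (commute_of_mem hS hq).symm

theorem zOf_iff (hS : Setting Q z) : ∀ x : G, x ∈ zOf (Q z) ↔ x = 1 ∨ x = z := by
  obtain ⟨w, -, -, hw⟩ := exists_gen hS.extra
  have hz1 : z ≠ 1 := fun h => by
    have := hS.order
    rw [h, orderOf_one] at this
    omega
  rcases (hw z).1 (z_mem_zOf hS) with h | h
  · exact absurd h hz1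
  · subst h; exact hw

theorem sing_sq (hS : Setting Q z) {u : G} (hu : ∃ g : G, g * z * g⁻¹ = u) : u * u = 1 := by
  obtain ⟨g, rfl⟩ := hu
  have hz : z * z = 1 := by rw [← pow_two, ← hS.order, pow_orderOf_eq_one]
  calc g * z * g⁻¹ * (g * z * g⁻¹) = g * (z * z) * g⁻¹ := by group
    _ = 1 := by rw [hz]; group

theorem sing_self_mem (hS : Setting Q z) {u : G} (hu : ∃ g : G, g * z * g⁻¹ = u) : u ∈ Q u := by
  obtain ⟨g, rfl⟩ := hu
  exact conj_mem hS g (mem_zOf.1 (z_mem_zOf hS)).1

/-- Conjugation inside `Q u` multiplies by `1` or `u`. -/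
theorem sing_conj (hS : Setting Q z) {u a b : G} (hu : ∃ g : G, g * z * g⁻¹ = u) (ha : a ∈ Q u)
    (hb : b ∈ Q u) : a * b * a⁻¹ = b ∨ a * b * a⁻¹ = u * b := by
  obtain ⟨g, rfl⟩ := hu
  have ha' := (mem_conj_iff hS g z a).1 ha
  have hb' := (mem_conj_iff hS g z b).1 hb
  rcases conj_mem_two hS.extra (zOf_iff hS) ha' hb' with e | e
  · left
    calc a * b * a⁻¹ = g * ((g⁻¹ * a * g) * (g⁻¹ * b * g) * (g⁻¹ * a * g)⁻¹) * g⁻¹ := by group
      _ = b := by rw [e]; group
  · right
    calc a * b * a⁻¹ = g * ((g⁻¹ * a * g) * (g⁻¹ * b * g) * (g⁻¹ * a * g)⁻¹) * g⁻¹ := by group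
      _ = g * z * g⁻¹ * b := by rw [e]; group

theorem sing_center (hS : Setting Q z) {u x : G} (hu : ∃ g : G, g * z * g⁻¹ = u) (hx : x ∈ Q u)
    (hc : ∀ q ∈ Q u, q * x = x * q) : x = 1 ∨ x = u := by
  obtain ⟨g, rfl⟩ := hu
  have h : g⁻¹ * x * g ∈ zOf (Q z) := mem_zOf.2 ⟨(mem_conj_iff hS g z x).1 hx, fun q hq => by
    have h := hc _ (conj_mem hS g hq)
    calc q * (g⁻¹ * x * g) = g⁻¹ * (g * q * g⁻¹ * x) * g := by group
      _ = g⁻¹ * (x * (g * q * g⁻¹)) * g := by rw [h]
      _ = _ := by group⟩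
  rcases (zOf_iff hS _).1 h with e | e
  · left; calc x = g * (g⁻¹ * x * g) * g⁻¹ := by group
      _ = 1 := by rw [e]; group
  · right; calc x = g * (g⁻¹ * x * g) * g⁻¹ := by group
      _ = g * z * g⁻¹ := by rw [e]

/-- Duality in `Q u`: an element outside `⟨B, u⟩` is moved by something centralizing `B`. -/
theorem sing_dual (hS : Setting Q z) {u : G} (hu : ∃ g : G, g * z * g⁻¹ = u) (B : Set G)
    (hB : B ⊆ (Q u : Set G)) {x : G} (hx : x ∈ Q u)
    (hxB : x ∉ Subgroup.closure (insert u B)) :
    ∃ q ∈ Q u, (∀ b ∈ B, q * b = b * q) ∧ q * x * q⁻¹ = u * x := by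
  classical
  have main : ∀ s : Finset G, (↑s ⊆ (Q u : Set G)) → ∀ y ∈ Q u,
      (∀ q ∈ Q u, (∀ b ∈ s, q * b = b * q) → q * y = y * q) →
      y ∈ Subgroup.closure (insert u (s : Set G)) := by
    intro s
    induction s using Finset.induction_on with
    | empty =>
      intro _ y hy h
      rcases sing_center hS hu hy (fun q hq => h q hq (by simp)) with rfl | rfl
      · exact one_mem _
      · exact Subgroup.subset_closure (by simp)
    | @insert a s has ih =>
      intro hsub y hy h
      rw [Finset.coe_insert, Set.insert_subset_iff] at hsub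
      have hmono : Subgroup.closure (insert u (s : Set G)) ≤
          Subgroup.closure (insert u (↑(insert a s) : Set G)) :=
        Subgroup.closure_mono (by rw [Finset.coe_insert]; exact Set.insert_subset_insert (Set.subset_insert _ _))
      by_cases hall : ∀ q ∈ Q u, (∀ b ∈ s, q * b = b * q) → q * y = y * q
      · exact hmono (ih hsub.2 y hy hall)
      · push Not at hall
        obtain ⟨q0, hq0, hq0s, hq0y⟩ := hall
        have hq0a : q0 * a * q0⁻¹ = u * a := by
          rcases sing_conj hS hu hq0 hsub.1 with e | e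
          · exfalso
            exact hq0y (h q0 hq0 fun b hb => by
              rcases Finset.mem_insert.1 hb with rfl | hb
              · exact mul_inv_eq_iff_eq_mul.1 e
              · exact hq0s b hb)
          · exact e
        have hya : y * a ∈ Subgroup.closure (insert u (s : Set G)) := by
          refine ih hsub.2 _ ((Q u).mul_mem hy hsub.1) fun q hq hqs => ?_
          have hcomm_u : ∀ w ∈ Q u, u * w = w * u := fun w hw => commute_of_mem hS hw
          have hy0 : q0 * y * q0⁻¹ = u * y :=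
            (sing_conj hS hu hq0 hy).resolve_left fun e => hq0y (mul_inv_eq_iff_eq_mul.1 e)
          rcases sing_conj hS hu hq hsub.1 with e | e
          · have e' := mul_inv_eq_iff_eq_mul.1 e
            have hy' := h q hq fun b hb => by
              rcases Finset.mem_insert.1 hb with rfl | hb
              · exact e'
              · exact hqs b hb
            rw [← mul_assoc, hy', mul_assoc, e', ← mul_assoc]
          · -- q0⁻¹ * q centralizes a
            have e1 : q0⁻¹ * (u * a) * q0 = a := by rw [← hq0a]; group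
            have hr : (q0⁻¹ * q) * y = y * (q0⁻¹ * q) := by
              refine h _ ((Q u).mul_mem ((Q u).inv_mem hq0) hq) fun b hb => ?_
              rcases Finset.mem_insert.1 hb with rfl | hb
              · calc q0⁻¹ * q * b = q0⁻¹ * (q * b * q⁻¹) * q := by group
                  _ = q0⁻¹ * (u * b) * q := by rw [e]
                  _ = (q0⁻¹ * (u * b) * q0) * (q0⁻¹ * q) := by group
                  _ = b * (q0⁻¹ * q) := by rw [e1]
              · exact (show Commute (q0⁻¹ * q) b from
                  (show Commute q0 b from hq0s b hb).inv_left.mul_left (hqs b hb))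
            have hqy : q * y * q⁻¹ = u * y := by
              calc q * y * q⁻¹ = q0 * ((q0⁻¹ * q) * y) * q⁻¹ := by group
                _ = q0 * (y * (q0⁻¹ * q)) * q⁻¹ := by rw [hr]
                _ = q0 * y * q0⁻¹ := by group
                _ = _ := hy0
            rw [← mul_inv_eq_iff_eq_mul]
            calc q * (y * a) * q⁻¹ = (q * y * q⁻¹) * (q * a * q⁻¹) := by group
              _ = u * (y * u) * a := by rw [hqy, e]; group
              _ = u * (u * y) * a := by rw [hcomm_u y hy]
              _ = y * a := by rw [← mul_assoc, sing_sq hS hu, one_mul]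
        have ha : a ∈ Subgroup.closure (insert u (↑(insert a s) : Set G)) :=
          Subgroup.subset_closure (by simp)
        have := mul_mem (hmono hya) (inv_mem ha)
        simpa [mul_assoc] using this
  by_contra hno
  push Not at hno
  have hfin := B.toFinite
  apply hxB
  have h := main hfin.toFinset (by simpa using hB) x hx fun q hq hqB => by
    rcases sing_conj hS hu hq hx with e | e
    · exact mul_inv_eq_iff_eq_mul.1 e
    · exact absurd e (hno q hq (fun b hb => hqB b (by simpa using hb)))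
  simpa using h

/-- Membership in the join of a subgroup and a commuting involution. -/
theorem mem_closure_insert {B : Subgroup G} {u x : G} (hu : u * u = 1)
    (hc : ∀ b ∈ B, u * b = b * u) (hx : x ∈ Subgroup.closure (insert u (B : Set G))) :
    x ∈ B ∨ x * u ∈ B := by
  have hui : u⁻¹ = u := inv_eq_of_mul_eq_one_left hu
  induction hx using Subgroup.closure_induction with
  | mem y hy =>
    rcases hy with rfl | hy
    · right; rw [hu]; exact one_mem _
    · exact Or.inl hy
  | one => exact Or.inl (one_mem _)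
  | mul a b _ _ ha hb =>
    rcases ha with ha | ha <;> rcases hb with hb | hb
    · exact Or.inl (mul_mem ha hb)
    · exact Or.inr (by rw [mul_assoc]; exact mul_mem ha hb)
    · right
      rw [mul_assoc, ← hc b hb, ← mul_assoc]
      exact mul_mem ha hb
    · left
      have h : a * u * (b * u) = a * b := by
        calc a * u * (b * u) = a * (u * (b * u)) := mul_assoc _ _ _
          _ = a * (b * u * u) := by rw [hc _ hb]
          _ = a * b := by rw [mul_assoc b, hu, mul_one]
      rw [← h]; exact mul_mem ha hb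
  | inv a _ ha =>
    rcases ha with ha | ha
    · exact Or.inl (inv_mem ha)
    · right
      have h : u * (a * u)⁻¹ * u⁻¹ = (a * u)⁻¹ :=
        mul_inv_eq_iff_eq_mul.2 (hc _ (inv_mem ha))
      have h2 : a⁻¹ * u = (a * u)⁻¹ := by
        rw [← h, mul_inv_rev]; simp [mul_assoc, hui, ← mul_assoc u u, hu]
      rw [h2]; exact inv_mem ha

end CfsgLib.SingularQ
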